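import Mathlib

/-!
# S5935 T7: generators of the alternating group of degree 13

* `exists_gens`: there are `x` of type `3 ^ 4` and `y` of type `3 ^ 2` in `A₁₃` such that `x * y` is a 13-cycle and
  `x`, `y` generate `A₁₃`.
* `isConj_of_cube`: two elements of order dividing 3 of `A₁₃` with supports of the same size are conjugate in `A₁₃`.
-/

set_option autoImplicit false

namespace Cfsg.Agent.H194.E7V

open Equiv Equiv.Perm

/-- the element of type `3 ^ 4` -/
def px : Perm (Fin 13) :=
  ⟨![5, 1, 3, 4, 2, 12, 7, 8, 6, 10, 11, 9, 0], ![12, 1, 4, 2, 3, 0, 8, 6, 7, 11, 9, 10, 5], by decide, by decide⟩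

/-- the element of type `3 ^ 2` -/
def py : Perm (Fin 13) :=
  ⟨![1, 4, 2, 3, 0, 8, 6, 7, 11, 9, 10, 5, 12], ![4, 0, 2, 3, 1, 11, 6, 7, 5, 9, 10, 8, 12], by decide, by decide⟩

theorem px_cube : px ^ 3 = 1 := by decide +kernel

theorem py_cube : py ^ 3 = 1 := by decide +kernel

theorem cycleType_of_cube {α : Type*} [Fintype α] [DecidableEq α] {σ : Perm α} (h : σ ^ 3 = 1) {k : ℕ}
    (hk : σ.support.card = 3 * k) : σ.cycleType = Multiset.replicate k 3 := by
  have : Fact (Nat.Prime 3) := ⟨Nat.prime_three⟩
  have h1 := cycleType_of_pow_prime_eq_one h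
  have h2 := σ.sum_cycleType
  rw [h1, Multiset.sum_replicate, hk, smul_eq_mul] at h2
  have h3 : Multiset.card σ.cycleType = k := by omega
  rw [h1, h3]

theorem sign_of_cube {α : Type*} [Fintype α] [DecidableEq α] {σ : Perm α} (h : σ ^ 3 = 1) : sign σ = 1 := by
  have h1 : (sign σ) ^ 3 = 1 := by rw [← map_pow, h, map_one]
  rcases Int.units_eq_one_or (sign σ) with h2 | h2
  · exact h2
  · rw [h2] at h1
    exact absurd h1 (by decide)

theorem px_supp : px.support.card = 3 * 4 := by decide +kernel

theorem py_supp : py.support.card = 3 * 2 := by decide +kernel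

theorem px_type : px.cycleType = {3, 3, 3, 3} := cycleType_of_cube px_cube px_supp

theorem py_type : py.cycleType = {3, 3} := cycleType_of_cube py_cube py_supp

theorem px_mem : px ∈ alternatingGroup (Fin 13) := mem_alternatingGroup.2 (sign_of_cube px_cube)

theorem py_mem : py ∈ alternatingGroup (Fin 13) := mem_alternatingGroup.2 (sign_of_cube py_cube)

theorem pxy_apply : ∀ i : Fin 13, (px * py) i = i + 1 := by decide +kernel

theorem pxy_pow : (px * py) ^ 13 = 1 := by decide +kernel

theorem pxy_order : orderOf (px * py) = 13 := by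
  have : Fact (Nat.Prime 13) := ⟨by norm_num⟩
  exact orderOf_eq_prime pxy_pow (by decide +kernel)

theorem word_three : ((px * py * px⁻¹ * py) ^ 7).IsThreeCycle := by
  rw [← card_support_eq_three_iff]
  decide +kernel

/-- the two elements generate the alternating group -/
theorem le_closure : alternatingGroup (Fin 13) ≤ Subgroup.closure {px, py} := by
  have hx : px ∈ Subgroup.closure {px, py} := Subgroup.subset_closure (by simp)
  have hy : py ∈ Subgroup.closure {px, py} := Subgroup.subset_closure (by simp)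
  have hpow : ∀ (k : ℕ) (i : Fin 13), ((px * py) ^ k) i = i + k • (1 : Fin 13) := by
    intro k
    induction k with
    | zero => intro i; simp
    | succ k ih =>
      intro i
      rw [pow_succ, Perm.mul_apply, pxy_apply, ih, succ_nsmul]
      abel
  have hval : ∀ a : Fin 13, a.val • (1 : Fin 13) = a := by decide
  have hpre : MulAction.IsPretransitive (Subgroup.closure {px, py}) (Fin 13) := by
    refine ⟨fun i j => ⟨⟨(px * py) ^ (j - i).val, pow_mem (mul_mem hx hy) _⟩, ?_⟩⟩
    show ((px * py) ^ (j - i).val) i = j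
    rw [hpow, hval]
    abel
  have hprim : MulAction.IsPreprimitive (Subgroup.closure {px, py}) (Fin 13) :=
    MulAction.IsPreprimitive.of_prime_card (by rw [Nat.card_eq_fintype_card, Fintype.card_fin]; norm_num)
  exact alternatingGroup_le_of_isPreprimitive_of_isThreeCycle_mem hprim word_three
    (pow_mem (mul_mem (mul_mem (mul_mem hx hy) (inv_mem hx)) hy) 7)

/-- `A₁₃` has generators of types `3 ^ 4`, `3 ^ 2` whose product is a 13-cycle. -/
theorem exists_gens : ∃ x y : alternatingGroup (Fin 13), (x : Perm (Fin 13)).cycleType = {3, 3, 3, 3} ∧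
    (y : Perm (Fin 13)).cycleType = {3, 3} ∧ orderOf (x * y) = 13 ∧ Subgroup.closure {x, y} = ⊤ := by
  refine ⟨⟨px, px_mem⟩, ⟨py, py_mem⟩, px_type, py_type, ?_, ?_⟩
  · rw [← Subgroup.orderOf_coe]
    exact pxy_order
  · apply Subgroup.map_injective (Subgroup.subtype_injective (alternatingGroup (Fin 13)))
    rw [MonoidHom.map_closure, Set.image_pair, ← MonoidHom.range_eq_map, Subgroup.range_subtype]
    refine le_antisymm ?_ le_closure
    rw [Subgroup.closure_le]
    rintro g (rfl | rfl)
    · exact px_mem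
    · exact py_mem

/-- Elements of order dividing 3 with supports of the same size are conjugate in `A₁₃`. -/
theorem isConj_of_cube {σ τ : alternatingGroup (Fin 13)} (hσ : (σ : Perm (Fin 13)) ^ 3 = 1)
    (hτ : (τ : Perm (Fin 13)) ^ 3 = 1)
    (h : (σ : Perm (Fin 13)).support.card = (τ : Perm (Fin 13)).support.card) : IsConj σ τ := by
  have : Fact (Nat.Prime 3) := ⟨Nat.prime_three⟩
  have h1 := cycleType_of_pow_prime_eq_one hσ
  have h2 := cycleType_of_pow_prime_eq_one hτ
  have h3 := (σ : Perm (Fin 13)).sum_cycleType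
  have h4 := (τ : Perm (Fin 13)).sum_cycleType
  rw [h1, Multiset.sum_replicate, smul_eq_mul] at h3
  rw [h2, Multiset.sum_replicate, smul_eq_mul] at h4
  have h5 : Multiset.card (σ : Perm (Fin 13)).cycleType = Multiset.card (τ : Perm (Fin 13)).cycleType := by omega
  have h6 : IsConj (σ : Perm (Fin 13)) (τ : Perm (Fin 13)) := by
    rw [isConj_iff_cycleType_eq, h1, h2, h5]
  -- an odd permutation centralizing `σ`
  have h7 : ¬ Subgroup.centralizer {(σ : Perm (Fin 13))} ≤ alternatingGroup (Fin 13) := by
    rw [centralizer_le_alternating_iff]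
    rintro ⟨-, h8, h9⟩
    have h10 := h9 3
    rw [h1, Multiset.count_replicate_self] at h10
    rw [(σ : Perm (Fin 13)).sum_cycleType, Fintype.card_fin] at h8
    omega
  obtain ⟨c, hc1, hc2⟩ := SetLike.not_le_iff_exists.1 h7
  rw [mem_alternatingGroup] at hc2
  have hc3 : sign c = -1 := (Int.units_eq_one_or _).resolve_left hc2
  obtain ⟨π, hπ⟩ := isConj_iff.1 h6
  rw [isConj_iff]
  rcases Int.units_eq_one_or (sign π) with hs | hs
  · exact ⟨⟨π, mem_alternatingGroup.2 hs⟩, Subtype.ext hπ⟩
  · refine ⟨⟨π * c, mem_alternatingGroup.2 (by rw [map_mul, hs, hc3]; decide)⟩, Subtype.ext ?_⟩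
    show π * c * (σ : Perm (Fin 13)) * (π * c)⁻¹ = τ
    have hc4 : c * (σ : Perm (Fin 13)) = σ * c := (Subgroup.mem_centralizer_singleton_iff.1 hc1)
    rw [mul_assoc π, hc4, mul_inv_rev, ← hπ]
    group

end Cfsg.Agent.H194.E7V
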