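import Cfsg.Agent.H943.E7V.Iface
import Cfsg.Agent.H484.Pos
import Cfsg.Agent.CharDeep.LinearChar
import Cfsg.Agent.S0157
import Cfsg.Agent.H194.E7V.A13Gen

/-!
# S5935 T7: the values of the 56-dimensional module at the elements of order 3 of the alternating group of degree 13
-/

set_option autoImplicit false

namespace Cfsg.Agent.H194.E7V

open Cfsg IsLocalRing Module Cfsg.Agent.H657 Cfsg.Agent.H943.E7V Equiv Equiv.Perm

universe u

variable {V : ValuationSubring ℂ} {M : Ideal AlgInt}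

attribute [local instance] Above.isAlgClosed

theorem bc_isConj {G : Type*} [Group G] {n : ℕ} (σ : Representation (ResidueField V) G (Fin n → ResidueField V))
    {g h : G} (hc : IsConj g h) : bc 2 σ g = bc 2 σ h := by
  obtain ⟨c, rfl⟩ := isConj_iff.1 hc
  exact (bc_conj 2 σ g c).symm

/-- The sum of the Brauer character over a subgroup of odd order given by a parametrization. -/
theorem fix_family (hM : IsPModular 2 M) (hV : Above M V) {G : Type u} [Group G] {n : ℕ}
    (σ : Representation (ResidueField V) G (Fin n → ResidueField V)) {ι : Type*} [Fintype ι] (T : ι → G)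
    (hinj : Function.Injective T) (hone : ∃ i, T i = 1) (hmul : ∀ i j, ∃ k, T i * T j = T k)
    (hodd : Odd (Fintype.card ι)) : ∃ d : ℕ, ∑ i, bc 2 σ (T i) = d * Fintype.card ι := by
  classical
  obtain ⟨e, he⟩ := hone
  choose m hm using hmul
  have hminj : ∀ i, Function.Injective (m i) := by
    intro i j j' h
    apply hinj
    apply mul_left_cancel (a := T i)
    rw [hm, hm, h]
  let K : Subgroup G :=
    { carrier := Set.range T
      one_mem' := ⟨e, he⟩
      mul_mem' := by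
        rintro _ _ ⟨i, rfl⟩ ⟨j, rfl⟩
        exact ⟨m i j, (hm i j).symm⟩
      inv_mem' := by
        rintro _ ⟨i, rfl⟩
        obtain ⟨j, hj⟩ := Finite.surjective_of_injective (hminj i) e
        refine ⟨j, ?_⟩
        rw [eq_inv_iff_mul_eq_one, mul_eq_one_comm, hm, hj, he] }
  let E : ι ≃ K := Equiv.ofInjective T hinj
  let _ : Fintype K := Fintype.ofEquiv ι E
  have hcard : Fintype.card K = Fintype.card ι := (Fintype.card_congr E).symm
  obtain ⟨d, -, hd⟩ := H484.Pos.pos hM hV (σ.comp K.subtype)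
    (CharDeep.LinearChar.isIrrCharacter_of_hom (1 : K →* ℂˣ)) (by
      intro g hg
      exfalso
      apply hg
      intro h2
      have h4 := h2.trans orderOf_dvd_card
      rw [hcard] at h4
      exact (Nat.not_even_iff_odd.2 hodd) (even_iff_two_dvd.2 h4))
  refine ⟨d, ?_⟩
  rw [hcard] at hd
  rw [hd]
  simp only [MonoidHom.one_apply, Units.val_one, mul_one, one_mul]
  exact (Fintype.sum_equiv E _ _ fun i => rfl)

/-! ### `A₅` -/

theorem a5_cases : ∀ g : alternatingGroup (Fin 5), g = 1 ∨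
    (g ≠ 1 ∧ g ^ 3 = 1 ∧ (Finset.univ.filter fun i => (g : Perm (Fin 5)) i = i).card = 2) ∨
    (g ≠ 1 ∧ g ^ 5 = 1 ∧ g ^ 3 ≠ 1 ∧ (Finset.univ.filter fun i => (g : Perm (Fin 5)) i = i).card = 0) ∨
    (g ≠ 1 ∧ g ^ 2 = 1 ∧ g ^ 3 ≠ 1 ∧ g ^ 5 ≠ 1 ∧
      (Finset.univ.filter fun i => (g : Perm (Fin 5)) i = i).card = 1) := by
  decide +kernel

theorem a5_three : (Finset.univ.filter fun g : alternatingGroup (Fin 5) => g ≠ 1 ∧ g ^ 3 = 1).card = 20 := by
  decide +kernel

theorem a5_five : (Finset.univ.filter fun g : alternatingGroup (Fin 5) => g ≠ 1 ∧ g ^ 5 = 1).card = 24 := by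
  decide +kernel

theorem a5_one : (Finset.univ.filter fun g : alternatingGroup (Fin 5) => g = 1).card = 1 := by
  decide +kernel

/-- Positivity for the 4-dimensional character of `A₅`. -/
theorem a5_pos (hM : IsPModular 2 M) (hV : Above M V)
    (σ : Representation (ResidueField V) (alternatingGroup (Fin 5)) (Fin 56 → ResidueField V)) (h1 : bc 2 σ 1 = 56)
    (h5 : ∀ g, orderOf g = 5 → bc 2 σ g = 6) {t : ℤ} (h3 : ∀ g, orderOf g = 3 → bc 2 σ g = t) : -4 ≤ t := by
  classical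
  have htr : MulAction.IsMultiplyPretransitive (alternatingGroup (Fin 5)) (Fin 5) (Nat.card (Fin 5) - 2) :=
    alternatingGroup.isMultiplyPretransitive (Fin 5)
  rw [Nat.card_eq_fintype_card, Fintype.card_fin] at htr
  have ht2 : MulAction.IsMultiplyPretransitive (alternatingGroup (Fin 5)) (Fin 5) 2 :=
    MulAction.isMultiplyPretransitive_of_le (n := 3) (by norm_num) (by simp)
  have ht1 : MulAction.IsPretransitive (alternatingGroup (Fin 5)) (Fin 5) :=
    MulAction.isPretransitive_of_is_two_pretransitive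
  have hirr := (S0157.result (G := alternatingGroup (Fin 5)) (Fin 5) (by simp)).2 ht2
  have hfix : ∀ g : alternatingGroup (Fin 5), Nat.card (MulAction.fixedBy (Fin 5) g) =
      (Finset.univ.filter fun i => (g : Perm (Fin 5)) i = i).card := by
    intro g
    rw [Nat.card_eq_fintype_card, Fintype.card_subtype]
    rfl
  have hp3 := Fact.mk (show Nat.Prime 3 by norm_num)
  have hp5 := Fact.mk (show Nat.Prime 5 by norm_num)
  obtain ⟨d, -, hd⟩ := H484.Pos.pos hM hV σ hirr (by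
    intro g hg
    simp only [IsPRegular, not_not] at hg
    rw [hfix]
    rcases a5_cases g with rfl | ⟨h2, h3, h4⟩ | ⟨h2, h3, -, h4⟩ | ⟨h2, h3, -, -, h4⟩
    · rw [orderOf_one] at hg
      norm_num at hg
    · rw [orderOf_eq_prime h3 h2] at hg
      norm_num at hg
    · rw [orderOf_eq_prime h3 h2] at hg
      norm_num at hg
    · rw [h4]
      norm_num)
  have hval : ∀ g : alternatingGroup (Fin 5), bc 2 σ g * ((Nat.card (MulAction.fixedBy (Fin 5) g⁻¹) : ℂ) - 1) =
      (224 : ℂ) * (if g = 1 then 1 else 0) + t * (if g ≠ 1 ∧ g ^ 3 = 1 then 1 else 0) +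
        (-6) * (if g ≠ 1 ∧ g ^ 5 = 1 then 1 else 0) := by
    intro g
    rw [MulAction.fixedBy_inv, hfix]
    rcases a5_cases g with rfl | ⟨h2, k3, h4⟩ | ⟨h2, k3, l3, h4⟩ | ⟨h2, k3, l3, l5, h4⟩
    · rw [h1, if_pos rfl, if_neg (by simp), if_neg (by simp)]
      have : (Finset.univ.filter fun i => ((1 : alternatingGroup (Fin 5)) : Perm (Fin 5)) i = i).card = 5 := by
        decide
      rw [this]
      norm_num
    · have h6 : orderOf g = 3 := orderOf_eq_prime k3 h2
      have h7 : g ^ 5 ≠ 1 := by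
        intro h
        have h8 := orderOf_dvd_of_pow_eq_one h
        rw [h6] at h8
        norm_num at h8
      rw [h3 g h6, h4, if_neg h2, if_pos ⟨h2, k3⟩, if_neg (fun h => h7 h.2)]
      norm_num
    · rw [h5 g (orderOf_eq_prime k3 h2), h4, if_neg h2, if_neg (fun h => l3 h.2), if_pos ⟨h2, k3⟩]
      norm_num
    · rw [h4, if_neg h2, if_neg (fun h => l3 h.2), if_neg (fun h => l5 h.2)]
      norm_num
  rw [Finset.sum_congr rfl fun g _ => hval g, Finset.sum_add_distrib, Finset.sum_add_distrib, ← Finset.mul_sum,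
    ← Finset.mul_sum, ← Finset.mul_sum, Finset.sum_boole, Finset.sum_boole, Finset.sum_boole, a5_one, a5_three,
    a5_five] at hd
  have hc1 : Nat.card (MulAction.fixedBy (Fin 5) (1 : alternatingGroup (Fin 5))) = 5 := by
    rw [hfix]
    decide
  rw [hc1] at hd
  have h9 : (d : ℝ) * (Fintype.card (alternatingGroup (Fin 5)) : ℝ) = 4 * (80 + 20 * t) := by
    have h10 : ((d : ℂ) * (Fintype.card (alternatingGroup (Fin 5)) : ℂ)) = 4 * (80 + 20 * t) := by
      rw [hd]
      push_cast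
      ring
    exact_mod_cast h10
  have h11 : (0 : ℝ) ≤ (d : ℝ) * (Fintype.card (alternatingGroup (Fin 5)) : ℝ) := by positivity
  rw [h9] at h11
  have h12 : (0 : ℤ) ≤ 4 * (80 + 20 * t) := by exact_mod_cast h11
  omega

/-! ### Embeddings of `A₅` -/

/-- `S₅` on 5 of the 13 points -/
def q1 : Perm (Fin 5) →* Perm (Fin 13) :=
  ((finSumFinEquiv : Fin 5 ⊕ Fin 8 ≃ Fin 13).permCongrHom.toMonoidHom).comp
    ((Perm.sumCongrHom (Fin 5) (Fin 8)).comp ((MonoidHom.id _).prod 1))

/-- `S₅` on 5 + 5 of the 13 points -/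
def q2 : Perm (Fin 5) →* Perm (Fin 13) :=
  (((Equiv.sumCongr finSumFinEquiv (Equiv.refl (Fin 3))).trans finSumFinEquiv :
      (Fin 5 ⊕ Fin 5) ⊕ Fin 3 ≃ Fin 13).permCongrHom.toMonoidHom).comp
    ((Perm.sumCongrHom (Fin 5 ⊕ Fin 5) (Fin 3)).comp
      (((Perm.sumCongrHom (Fin 5) (Fin 5)).comp ((MonoidHom.id _).prod (MonoidHom.id _))).prod 1))

theorem q1_spec : ∀ g : alternatingGroup (Fin 5), (q1 g = 1 → g = 1) ∧
    (g ≠ 1 → g ^ 3 = 1 → (q1 g).support.card = 3) := by
  decide +kernel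

theorem q2_spec : ∀ g : alternatingGroup (Fin 5), (q2 g = 1 → g = 1) ∧
    (g ≠ 1 → g ^ 3 = 1 → (q2 g).support.card = 6) := by
  decide +kernel

theorem q1_sign (g : Perm (Fin 5)) : sign (q1 g) = sign g := by
  show sign (Equiv.permCongr _ (Perm.sumCongr g 1)) = _
  rw [sign_permCongr, sign_sumCongr, Perm.sign_one, mul_one]

theorem q2_sign (g : Perm (Fin 5)) : sign (q2 g) = sign g * sign g := by
  show sign (Equiv.permCongr _ (Perm.sumCongr (Perm.sumCongr g g) 1)) = _
  rw [sign_permCongr, sign_sumCongr, sign_sumCongr, Perm.sign_one, mul_one]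

/-- restriction of a homomorphism to the alternating groups -/
def qAlt (q : Perm (Fin 5) →* Perm (Fin 13)) (h : ∀ g, sign g = 1 → sign (q g) = 1) :
    alternatingGroup (Fin 5) →* alternatingGroup (Fin 13) :=
  (q.comp (alternatingGroup (Fin 5)).subtype).codRestrict (alternatingGroup (Fin 13))
    (fun g => mem_alternatingGroup.2 (h g (mem_alternatingGroup.1 g.2)))

/-- The value at the elements of order 3 with support of size `s`, if `A₅` is embedded suitably. -/
theorem a5_value (hM : IsPModular 2 M) (hV : Above M V)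
    {σ : Representation (ResidueField V) (alternatingGroup (Fin 13)) (Fin 56 → ResidueField V)} (H : Vals σ)
    (q : Perm (Fin 5) →* Perm (Fin 13)) (h : ∀ g, sign g = 1 → sign (q g) = 1) {s : ℕ}
    (hq : ∀ g : alternatingGroup (Fin 5), (q g = 1 → g = 1) ∧ (g ≠ 1 → g ^ 3 = 1 → (q g).support.card = s))
    {x : alternatingGroup (Fin 13)} (hx : (x : Perm (Fin 13)) ^ 3 = 1) (hxs : (x : Perm (Fin 13)).support.card = s)
    {t : ℤ} (ht : bc 2 σ x = t) : -4 ≤ t := by
  have hinj : Function.Injective (qAlt q h) := by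
    rw [injective_iff_map_eq_one]
    intro g hg
    exact (hq g).1 (congrArg Subtype.val hg)
  refine a5_pos hM hV (σ.comp (qAlt q h)) ?_ (fun g hg => ?_) (fun g hg => ?_)
  · have := H.one
    rw [← map_one (qAlt q h)] at this
    exact this
  · exact H.five (qAlt q h g) (by rw [orderOf_injective _ hinj, hg])
  · have hg3 : g ^ 3 = 1 := by rw [← hg, pow_orderOf_eq_one]
    have hg1 : g ≠ 1 := by
      rintro rfl
      rw [orderOf_one] at hg
      norm_num at hg
    rw [← ht]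
    refine bc_isConj σ (isConj_of_cube ?_ hx ?_)
    · show (q g) ^ 3 = 1
      rw [← map_pow, ← Subgroup.coe_pow, hg3, Subgroup.coe_one, map_one]
    · show (q g).support.card = _
      rw [(hq g).2 hg1 hg3, hxs]

/-! ### The elementary abelian group `3 ^ 4` -/

/-- the points `0, ..., 11` -/
def pt (k : Fin 4) (a : Fin 3) : Fin 13 := ⟨3 * k.val + a.val, by omega⟩

/-- translations of the four blocks of size three -/
def tf (v : Fin 4 → Fin 3) : Fin 13 → Fin 13 :=
  ![pt 0 (0 + v 0), pt 0 (1 + v 0), pt 0 (2 + v 0), pt 1 (0 + v 1), pt 1 (1 + v 1), pt 1 (2 + v 1),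
    pt 2 (0 + v 2), pt 2 (1 + v 2), pt 2 (2 + v 2), pt 3 (0 + v 3), pt 3 (1 + v 3), pt 3 (2 + v 3), 12]

theorem tf_pt (v : Fin 4 → Fin 3) (k : Fin 4) (a : Fin 3) : tf v (pt k a) = pt k (a + v k) := by
  fin_cases k <;> fin_cases a <;> rfl

theorem tf_last (v : Fin 4 → Fin 3) : tf v 12 = 12 := rfl

theorem cases_pt : ∀ i : Fin 13, i = 12 ∨ ∃ k a, i = pt k a := by decide

theorem tf_add (v w : Fin 4 → Fin 3) (i : Fin 13) : tf v (tf w i) = tf (w + v) i := by
  rcases cases_pt i with rfl | ⟨k, a, rfl⟩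
  · rw [tf_last, tf_last, tf_last]
  · rw [tf_pt, tf_pt, tf_pt, Pi.add_apply, add_assoc]

theorem tf_zero (i : Fin 13) : tf 0 i = i := by
  rcases cases_pt i with rfl | ⟨k, a, rfl⟩
  · rw [tf_last]
  · rw [tf_pt, Pi.zero_apply, add_zero]

/-- the elements of the elementary abelian group -/
def tp (v : Fin 4 → Fin 3) : Perm (Fin 13) :=
  ⟨tf v, tf (-v), fun i => by rw [tf_add, add_neg_cancel, tf_zero], fun i => by rw [tf_add, neg_add_cancel, tf_zero]⟩

theorem tp_mul (v w : Fin 4 → Fin 3) : tp v * tp w = tp (w + v) := Equiv.ext (tf_add v w)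

theorem tp_cube (v : Fin 4 → Fin 3) : tp v ^ 3 = 1 := by
  rw [pow_succ, pow_two, tp_mul, tp_mul]
  have h : v + (v + v) = 0 := by
    funext k
    show v k + (v k + v k) = 0
    generalize v k = a
    revert a
    decide
  rw [h]
  exact Equiv.ext tf_zero

/-- the weight -/
def wt (v : Fin 4 → Fin 3) : ℕ := (Finset.univ.filter fun k => v k ≠ 0).card

theorem tp_supp : ∀ v : Fin 4 → Fin 3, (tp v).support.card = 3 * wt v := by
  decide +kernel

theorem pt_inj : ∀ k a b, pt k a = pt k b → a = b := by decide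

theorem tp_inj : Function.Injective tp := by
  intro v w h
  funext k
  have h1 : tf v (pt k 0) = tf w (pt k 0) := DFunLike.congr_fun h (pt k 0)
  rw [tf_pt, tf_pt, zero_add, zero_add] at h1
  exact pt_inj _ _ _ h1

/-- the elements of `3 ^ 4` in the alternating group -/
def ta (v : Fin 4 → Fin 3) : alternatingGroup (Fin 13) := ⟨tp v, mem_alternatingGroup.2 (sign_of_cube (tp_cube v))⟩

theorem ta_inj : Function.Injective ta := fun _ _ h => tp_inj (congrArg Subtype.val h)

theorem ta_mul (v w : Fin 4 → Fin 3) : ta v * ta w = ta (w + v) := Subtype.ext (tp_mul v w)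

theorem ta_zero : ta 0 = 1 := Subtype.ext (Equiv.ext tf_zero)

/-- the reference vector of weight `w` -/
def rf (w : ℕ) : Fin 4 → Fin 3 := fun k => if k.val < w then 1 else 0

theorem wt_rf : ∀ w : Fin 5, wt (rf w) = w := by decide

theorem wt_lt : ∀ v, wt v < 5 := by decide +kernel

theorem ta_conj (v : Fin 4 → Fin 3) : IsConj (ta v) (ta (rf (wt v))) := by
  refine isConj_of_cube (tp_cube _) (tp_cube _) ?_
  show (tp v).support.card = (tp (rf (wt v))).support.card
  rw [tp_supp, tp_supp, wt_rf ⟨wt v, wt_lt v⟩]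

theorem count_wt : ∀ w : Fin 5, (Finset.univ.filter fun v : Fin 4 → Fin 3 => wt v = w).card = ![1, 8, 24, 32, 16] w := by
  decide +kernel

/-- the vectors supported on the first three blocks -/
def e3 (v : Fin 3 → Fin 3) : Fin 4 → Fin 3 := ![v 0, v 1, v 2, 0]

theorem count_wt3 : ∀ w : Fin 5, (Finset.univ.filter fun v : Fin 3 → Fin 3 => wt (e3 v) = w).card =
    ![1, 6, 12, 8, 0] w := by
  decide +kernel

theorem e3_add (v w : Fin 3 → Fin 3) : e3 v + e3 w = e3 (v + w) := by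
  funext k
  fin_cases k <;> rfl

theorem e3_inj : Function.Injective e3 := by
  intro v w h
  funext k
  fin_cases k
  · exact congrFun h 0
  · exact congrFun h 1
  · exact congrFun h 2

theorem sum_wt {ι : Type*} [Fintype ι] (w : ι → ℕ) (hw : ∀ i, w i < 5) (c : Fin 5 → ℕ)
    (hc : ∀ k : Fin 5, (Finset.univ.filter fun i => w i = k).card = c k) (X : ℕ → ℂ) :
    ∑ i, X (w i) = ∑ k : Fin 5, (c k : ℂ) * X k := by
  classical
  have h1 : ∀ i, X (w i) = ∑ k : Fin 5, if w i = k then X k else 0 := by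
    intro i
    rw [Finset.sum_eq_single (⟨w i, hw i⟩ : Fin 5)]
    · rw [if_pos rfl]
    · intro b _ hb
      rw [if_neg]
      intro h
      apply hb
      exact Fin.ext h.symm
    · intro h
      exact absurd (Finset.mem_univ _) h
  rw [Finset.sum_congr rfl fun i _ => h1 i, Finset.sum_comm]
  refine Finset.sum_congr rfl fun k _ => ?_
  rw [← Finset.sum_filter, Finset.sum_const, hc, nsmul_eq_mul]

/-! ### The Frobenius group `13:3` -/

/-- the elements 1, 3, 9 -/
def m3 (u : Fin 3) : Fin 13 := ![1, 3, 9] u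

theorem m3_mul : ∀ u u' : Fin 3, m3 u * m3 u' = m3 (u' + u) := by decide

theorem af_aux (a b x v' v : Fin 13) : a * (b * x + v') + v = (a * b) * x + (a * v' + v) := by
  open Fin.CommRing in ring

/-- the elements of `13:3` -/
def af (i : Fin 3 × Fin 13) : Perm (Fin 13) :=
  ⟨fun x => m3 i.1 * x + i.2, fun x => m3 (-i.1) * (x - i.2), by
    revert i; decide +kernel, by revert i; decide +kernel⟩

theorem af_mul (i j : Fin 3 × Fin 13) : af i * af j = af (j.1 + i.1, m3 i.1 * j.2 + i.2) := by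
  apply Equiv.ext
  intro x
  show m3 i.1 * (m3 j.1 * x + j.2) + i.2 = m3 (j.1 + i.1) * x + (m3 i.1 * j.2 + i.2)
  rw [af_aux, m3_mul]

theorem af_inj' : ∀ i j : Fin 3 × Fin 13, af i 0 = af j 0 → af i 1 = af j 1 → i = j := by
  decide +kernel

theorem af_inj : Function.Injective af := fun i j h => af_inj' i j (DFunLike.congr_fun h 0) (DFunLike.congr_fun h 1)

theorem af_spec : ∀ i : Fin 3 × Fin 13, (i.1 ≠ 0 → af i ^ 3 = 1 ∧ (af i).support.card = 12) ∧
    (i.1 = 0 → i.2 ≠ 0 → af i ^ 13 = 1 ∧ af i ≠ 1) := by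
  decide +kernel

theorem af_pow : ∀ i : Fin 3 × Fin 13, af i ^ 39 = 1 := by
  decide +kernel

theorem af_sign (i : Fin 3 × Fin 13) : sign (af i) = 1 := by
  have h1 : (sign (af i)) ^ 39 = 1 := by rw [← map_pow, af_pow, map_one]
  rcases Int.units_eq_one_or (sign (af i)) with h2 | h2
  · exact h2
  · rw [h2] at h1
    exact absurd h1 (by decide)

/-- the elements of `13:3` in the alternating group -/
def aa (i : Fin 3 × Fin 13) : alternatingGroup (Fin 13) := ⟨af i, mem_alternatingGroup.2 (af_sign i)⟩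

theorem aa_inj : Function.Injective aa := fun _ _ h => af_inj (congrArg Subtype.val h)

theorem aa_mul (i j : Fin 3 × Fin 13) : aa i * aa j = aa (j.1 + i.1, m3 i.1 * j.2 + i.2) := Subtype.ext (af_mul i j)

theorem aa_one : aa (0, 0) = 1 := Subtype.ext (by decide +kernel)

theorem aa_count : ((Finset.univ.filter fun i : Fin 3 × Fin 13 => i.1 ≠ 0).card = 26) ∧
    ((Finset.univ.filter fun i : Fin 3 × Fin 13 => i.1 = 0 ∧ i.2 ≠ 0).card = 12) ∧
    ((Finset.univ.filter fun i : Fin 3 × Fin 13 => i.1 = 0 ∧ i.2 = 0).card = 1) := by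
  decide +kernel

/-! ### The values -/

theorem two_or {x : ℤ} (h : x = 2 ∨ x = 20 ∨ x = -7 ∨ x = -25) (k : -4 ≤ x) : x = 2 ∨ x = 20 := by
  omega

theorem int_arith {x1 x2 x3 x4 : ℤ} (h1 : x1 = 2 ∨ x1 = 20 ∨ x1 = -7 ∨ x1 = -25)
    (h2 : x2 = 2 ∨ x2 = 20 ∨ x2 = -7 ∨ x2 = -25) (h3 : x3 = 2 ∨ x3 = 20 ∨ x3 = -7 ∨ x3 = -25)
    (h4 : x4 = 2 ∨ x4 = 20 ∨ x4 = -7 ∨ x4 = -25) (k1 : -4 ≤ x1) (k2 : -4 ≤ x2) {d d' d'' : ℕ}
    (k4 : 104 + 26 * x4 = d * 39) (hE : 56 + 8 * x1 + 24 * x2 + 32 * x3 + 16 * x4 = d' * 81)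
    (hE3 : 56 + 6 * x1 + 12 * x2 + 8 * x3 = d'' * 27) : (x4 = 2 ∧ x2 = 20) ∨ (x4 = 20 ∧ x2 = 2) := by
  have k4' : -4 ≤ x4 := by
    clear h1 h2 h3 h4 k1 k2 hE hE3
    omega
  have h1' := two_or h1 k1
  have h2' := two_or h2 k2
  have h4' := two_or h4 k4'
  clear h1 h2 h4 k1 k2 k4 k4'
  rcases h1' with rfl | rfl <;> rcases h2' with rfl | rfl <;> rcases h4' with rfl | rfl <;>
    rcases h3 with rfl | rfl | rfl | rfl <;> omega

/-- **The values of the 56-dimensional module at the elements of type `3 ^ 4` and `3 ^ 2` of `A₁₃`.** -/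
theorem values (hM : IsPModular 2 M) (hV : Above M V)
    {σ : Representation (ResidueField V) (alternatingGroup (Fin 13)) (Fin 56 → ResidueField V)} (H : Vals σ)
    {x y : alternatingGroup (Fin 13)} (hx : (x : Perm (Fin 13)).cycleType = {3, 3, 3, 3})
    (hy : (y : Perm (Fin 13)).cycleType = {3, 3}) :
    (bc 2 σ x = 2 ∧ bc 2 σ y = 20) ∨ (bc 2 σ x = 20 ∧ bc 2 σ y = 2) := by
  classical
  have hp3 := Fact.mk (show Nat.Prime 3 by norm_num)
  have hp13 := Fact.mk (show Nat.Prime 13 by norm_num)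
  -- the value at weight `w`
  have hX : ∀ w : Fin 5, w ≠ 0 → ∃ t : ℤ, bc 2 σ (ta (rf w)) = t ∧ (t = 2 ∨ t = 20 ∨ t = -7 ∨ t = -25) := by
    intro w hw
    have h3 : orderOf (ta (rf w)) = 3 := by
      refine orderOf_eq_prime (Subtype.ext (tp_cube _)) ?_
      rw [← ta_zero]
      intro h
      have h5 := ta_inj h
      have h6 : ∀ w : Fin 5, w ≠ 0 → rf w ≠ 0 := by decide
      exact h6 w hw h5
    rcases H.three _ h3 with h | h | h | h
    · exact ⟨2, by rw [h]; norm_num, by norm_num⟩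
    · exact ⟨20, by rw [h]; norm_num, by norm_num⟩
    · exact ⟨-7, by rw [h]; norm_num, by norm_num⟩
    · exact ⟨-25, by rw [h]; norm_num, by norm_num⟩
  obtain ⟨x1, e1, h1⟩ := hX 1 (by decide)
  obtain ⟨x2, e2, h2⟩ := hX 2 (by decide)
  obtain ⟨x3, e3', h3⟩ := hX 3 (by decide)
  obtain ⟨x4, e4, h4⟩ := hX 4 (by decide)
  have e0 : bc 2 σ (ta (rf 0)) = 56 := by
    have : rf 0 = 0 := by decide
    rw [this, ta_zero, H.one]
  have hcard : ∀ w : Fin 5, ((ta (rf w) : alternatingGroup (Fin 13)) : Perm (Fin 13)).support.card = 3 * w := by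
    intro w
    show (tp (rf w)).support.card = _
    rw [tp_supp, wt_rf]
  -- `A₅`
  have k1 : -4 ≤ x1 := a5_value hM hV H q1 (fun g hg => by rw [q1_sign, hg]) q1_spec
    (x := ta (rf (1 : Fin 5))) (tp_cube _) (hcard 1) e1
  have k2 : -4 ≤ x2 := a5_value hM hV H q2 (fun g hg => by rw [q2_sign, hg, one_mul]) q2_spec
    (x := ta (rf (2 : Fin 5))) (tp_cube _) (hcard 2) e2
  -- `13:3`
  obtain ⟨d, hd⟩ := fix_family hM hV σ aa aa_inj ⟨_, aa_one⟩ (fun i j => ⟨_, aa_mul i j⟩) (by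
    rw [Fintype.card_prod, Fintype.card_fin, Fintype.card_fin]
    decide)
  have hval : ∀ i : Fin 3 × Fin 13, bc 2 σ (aa i) = (x4 : ℂ) * (if i.1 ≠ 0 then 1 else 0) +
      4 * (if i.1 = 0 ∧ i.2 ≠ 0 then 1 else 0) + 56 * (if i.1 = 0 ∧ i.2 = 0 then 1 else 0) := by
    intro i
    by_cases hi : i.1 = 0
    · by_cases hi2 : i.2 = 0
      · have : i = (0, 0) := Prod.ext hi hi2
        subst this
        rw [aa_one, H.one]
        norm_num
      · obtain ⟨h5, h6⟩ := (af_spec i).2 hi hi2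
        rw [H.thirteen (aa i) (orderOf_eq_prime (Subtype.ext h5) (fun h => h6 (congrArg Subtype.val h))),
          if_neg (not_not.2 hi), if_pos ⟨hi, hi2⟩, if_neg (fun h => hi2 h.2)]
        norm_num
    · obtain ⟨h5, h6⟩ := (af_spec i).1 hi
      have h7 : bc 2 σ (aa i) = x4 := by
        rw [← e4]
        refine bc_isConj σ (isConj_of_cube h5 (tp_cube _) ?_)
        rw [hcard 4]
        exact h6
      rw [h7, if_pos hi, if_neg (fun h => hi h.1), if_neg (fun h => hi h.1)]
      norm_num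
  rw [Finset.sum_congr rfl fun i _ => hval i, Finset.sum_add_distrib, Finset.sum_add_distrib, ← Finset.mul_sum,
    ← Finset.mul_sum, ← Finset.mul_sum, Finset.sum_boole, Finset.sum_boole, Finset.sum_boole, aa_count.1,
    aa_count.2.1, aa_count.2.2, Fintype.card_prod, Fintype.card_fin, Fintype.card_fin] at hd
  have k4 : 104 + 26 * x4 = d * 39 := by
    have : ((104 + 26 * x4 : ℤ) : ℂ) = ((d * 39 : ℤ) : ℂ) := by
      push_cast at hd ⊢
      linear_combination hd
    exact_mod_cast this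
  -- `3 ^ 4`
  have hX' : ∀ v, bc 2 σ (ta v) = bc 2 σ (ta (rf (wt v))) := fun v => bc_isConj σ (ta_conj v)
  obtain ⟨d', hd'⟩ := fix_family hM hV σ ta ta_inj ⟨_, ta_zero⟩ (fun i j => ⟨_, ta_mul i j⟩) (by decide)
  rw [Finset.sum_congr rfl fun v _ => hX' v, sum_wt wt wt_lt _ count_wt (fun w => bc 2 σ (ta (rf w)))] at hd'
  obtain ⟨d'', hd''⟩ := fix_family hM hV σ (fun v => ta (e3 v)) (ta_inj.comp e3_inj) ⟨0, by
      rw [← ta_zero]
      exact congrArg ta (by decide)⟩
    (fun i j => ⟨j + i, by rw [ta_mul, e3_add]⟩) (by decide)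
  rw [Finset.sum_congr rfl fun v _ => hX' (e3 v), sum_wt (fun v => wt (e3 v)) (fun v => wt_lt _) _ count_wt3
    (fun w => bc 2 σ (ta (rf w)))] at hd''
  have hsum : ∀ c : Fin 5 → ℕ, ∑ k : Fin 5, (c k : ℂ) * bc 2 σ (ta (rf k)) =
      (((c 0 : ℤ) * 56 + c 1 * x1 + c 2 * x2 + c 3 * x3 + c 4 * x4 : ℤ) : ℂ) := by
    intro c
    rw [Fin.sum_univ_five]
    have f0 : bc 2 σ (ta (rf ((0 : Fin 5) : ℕ))) = 56 := e0
    rw [f0, e1, e2, e3', e4]
    push_cast
    ring
  rw [hsum] at hd' hd''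
  have hE : 56 + 8 * x1 + 24 * x2 + 32 * x3 + 16 * x4 = d' * 81 := by
    have h5 : ((((![1, 8, 24, 32, 16] : Fin 5 → ℕ) 0 : ℤ) * 56 + (![1, 8, 24, 32, 16] : Fin 5 → ℕ) 1 * x1 +
        (![1, 8, 24, 32, 16] : Fin 5 → ℕ) 2 * x2 + (![1, 8, 24, 32, 16] : Fin 5 → ℕ) 3 * x3 +
        (![1, 8, 24, 32, 16] : Fin 5 → ℕ) 4 * x4 : ℤ)) = d' * (Fintype.card (Fin 4 → Fin 3) : ℤ) := by
      exact_mod_cast hd'
    have h6 : Fintype.card (Fin 4 → Fin 3) = 81 := by decide
    rw [h6] at h5
    simpa using h5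
  have hE3 : 56 + 6 * x1 + 12 * x2 + 8 * x3 = d'' * 27 := by
    have h5 : ((((![1, 6, 12, 8, 0] : Fin 5 → ℕ) 0 : ℤ) * 56 + (![1, 6, 12, 8, 0] : Fin 5 → ℕ) 1 * x1 +
        (![1, 6, 12, 8, 0] : Fin 5 → ℕ) 2 * x2 + (![1, 6, 12, 8, 0] : Fin 5 → ℕ) 3 * x3 +
        (![1, 6, 12, 8, 0] : Fin 5 → ℕ) 4 * x4 : ℤ)) = d'' * (Fintype.card (Fin 3 → Fin 3) : ℤ) := by
      exact_mod_cast hd''
    have h6 : Fintype.card (Fin 3 → Fin 3) = 27 := by decide
    rw [h6] at h5
    simpa using h5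
  -- the elements `x` and `y`
  have cube : ∀ {g : alternatingGroup (Fin 13)} {k : ℕ}, (g : Perm (Fin 13)).cycleType = Multiset.replicate k 3 →
      (g : Perm (Fin 13)) ^ 3 = 1 ∧ (g : Perm (Fin 13)).support.card = 3 * k := by
    intro g k hg
    refine ⟨pow_prime_eq_one_iff.2 fun c hc => ?_, ?_⟩
    · rw [hg] at hc
      exact Multiset.eq_of_mem_replicate hc
    · rw [← (g : Perm (Fin 13)).sum_cycleType, hg, Multiset.sum_replicate, smul_eq_mul, mul_comm]
  have hx' := cube (k := 4) hx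
  have hy' := cube (k := 2) hy
  have hbx : bc 2 σ x = x4 := by
    rw [← e4]
    exact bc_isConj σ (isConj_of_cube hx'.1 (tp_cube _) (hx'.2.trans (hcard 4).symm))
  have hby : bc 2 σ y = x2 := by
    rw [← e2]
    exact bc_isConj σ (isConj_of_cube hy'.1 (tp_cube _) (hy'.2.trans (hcard 2).symm))
  rw [hbx, hby]
  rcases int_arith h1 h2 h3 h4 k1 k2 k4 hE hE3 with ⟨rfl, rfl⟩ | ⟨rfl, rfl⟩
  · left
    norm_num
  · right
    norm_num

/-- **T7**: generators `x`, `y` of `A₁₃` of order 3 with the values 2 and 20 (in some order) and `x * y` of order 13. -/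
theorem exists_pair (hM : IsPModular 2 M) (hV : Above M V)
    {σ : Representation (ResidueField V) (alternatingGroup (Fin 13)) (Fin 56 → ResidueField V)} (H : Vals σ) :
    ∃ x y : alternatingGroup (Fin 13), orderOf x = 3 ∧ orderOf y = 3 ∧ orderOf (x * y) = 13 ∧
      Subgroup.closure {x, y} = ⊤ ∧ bc 2 σ x = 2 ∧ bc 2 σ y = 20 ∧ bc 2 σ (x * y) = 4 := by
  obtain ⟨x, y, hx, hy, hxy, hcl⟩ := exists_gens
  have ord : ∀ {g : alternatingGroup (Fin 13)} {k : ℕ}, (g : Perm (Fin 13)).cycleType = Multiset.replicate (k + 1) 3 →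
      orderOf g = 3 := by
    intro g k hg
    have : Fact (Nat.Prime 3) := ⟨Nat.prime_three⟩
    refine orderOf_eq_prime (Subtype.ext (pow_prime_eq_one_iff.2 fun c hc => ?_)) ?_
    · rw [hg] at hc
      exact Multiset.eq_of_mem_replicate hc
    · rintro rfl
      rw [Subgroup.coe_one, cycleType_one] at hg
      have h1 := congrArg Multiset.card hg
      rw [Multiset.card_replicate] at h1
      simp at h1
  have hx3 : orderOf x = 3 := ord (k := 3) hx
  have hy3 : orderOf y = 3 := ord (k := 1) hy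
  rcases values hM hV H hx hy with ⟨h1, h2⟩ | ⟨h1, h2⟩
  · exact ⟨x, y, hx3, hy3, hxy, hcl, h1, h2, H.thirteen _ hxy⟩
  · have h3 : orderOf (y * x) = 13 := by
      have h4 := orderOf_injective (MulAut.conj x).toMonoidHom (MulAut.conj x).injective (y * x)
      have h5 : (MulAut.conj x).toMonoidHom (y * x) = x * y := by
        show x * (y * x) * x⁻¹ = x * y
        group
      rw [h5] at h4
      exact h4.symm.trans hxy
    refine ⟨y, x, hy3, hx3, h3, ?_, h2, h1, H.thirteen _ h3⟩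
    rw [Set.pair_comm]
    exact hcl

end Cfsg.Agent.H194.E7V
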